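import Groth.Agent.S0254
import Mathlib.RingTheory.Localization.AsSubring
import Mathlib.RingTheory.DedekindDomain.Basic
import Mathlib.FieldTheory.RatFunc.AsPolynomial
import Mathlib.AlgebraicGeometry.OpenImmersion

/-!
# Strictly henselian rings with algebraically closed fraction field

`Ω` an algebraically closed field, algebraic over `k[X]` (via an injective `k[X] ⟶ Ω`): a strictly henselian local
domain `R` between `k[X]` and `Ω` with `X ∈ 𝔪`, `R[1/X] = Ω`.
-/

set_option autoImplicit false
universe u

namespace Groth.Agent.Sga5.H853.BaseRing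

open Polynomial

theorem isAlgClosed_residueField (R : Type u) [CommRing R] [IsDomain R] [IsLocalRing R] [IsIntegrallyClosed R]
    [IsSepClosed (FractionRing R)] (h : IsLocalRing.maximalIdeal R ≠ ⊥) :
    IsAlgClosed (IsLocalRing.ResidueField R) := by
  have h1 := Groth.Agent.S0253.result R (IsLocalRing.maximalIdeal R) h
  have h2 := Ideal.bijective_algebraMap_quotient_residueField (IsLocalRing.maximalIdeal R)
  let e2 : (R ⧸ IsLocalRing.maximalIdeal R) ≃+* (IsLocalRing.maximalIdeal R).ResidueField :=
    RingEquiv.ofBijective _ h2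
  exact IsAlgClosed.of_ringEquiv _ (IsLocalRing.ResidueField R) e2.symm

/-- clearing denominators -/
theorem exists_pow_mul (R K : Type u) [CommRing R] [IsDomain R] [IsLocalRing R] [Field K] [Algebra R K]
    [IsFractionRing R K] (σ : R) (hσ : σ ∈ IsLocalRing.maximalIdeal R)
    (hprime : ∀ p : Ideal R, p.IsPrime → p ≠ ⊥ → p = IsLocalRing.maximalIdeal R) (z : K) :
    ∃ (n : ℕ) (a : R), algebraMap R K σ ^ n * z = algebraMap R K a := by
  obtain ⟨a, b, hb, rfl⟩ := IsFractionRing.div_surjective (A := R) z
  have hb0 : b ≠ 0 := nonZeroDivisors.ne_zero hb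
  have hrad : σ ∈ (Ideal.span {b}).radical := by
    rw [Ideal.radical_eq_sInf, Submodule.mem_sInf]
    rintro p ⟨hpb, hp⟩
    have : p ≠ ⊥ := by
      rintro rfl
      exact hb0 (hpb (Ideal.mem_span_singleton_self b))
    rw [hprime p hp this]
    exact hσ
  obtain ⟨n, hn⟩ := hrad
  obtain ⟨c, hc⟩ := Ideal.mem_span_singleton'.1 hn
  refine ⟨n, c * a, ?_⟩
  have hb1 : algebraMap R K b ≠ 0 := by
    rw [Ne, IsFractionRing.to_map_eq_zero_iff]
    exact hb0
  rw [← map_pow, ← hc, map_mul, map_mul]
  field_simp

theorem eq_maximalIdeal (A R : Type u) [CommRing A] [CommRing R] [Algebra A R] (q : Ideal A) [hq : q.IsPrime]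
    [IsLocalization.AtPrime R q] [IsLocalRing R]
    [Ring.DimensionLEOne A] (p : Ideal R) (hp : p.IsPrime) (hp0 : p ≠ ⊥) : p = IsLocalRing.maximalIdeal R := by
  have h1 : p.under A ≠ ⊥ := by
    intro h
    apply hp0
    rw [← IsLocalization.map_under q.primeCompl R p, h, Ideal.map_bot]
  have h2 : (p.under A).IsPrime := inferInstance
  have h3 : (p.under A).IsMaximal := h2.isMaximal h1
  have h4 : p.under A ≤ q := by
    rw [← IsLocalization.AtPrime.under_maximalIdeal R q]
    exact Ideal.comap_mono (IsLocalRing.le_maximalIdeal hp.ne_top)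
  have h5 : p.under A = q := h3.eq_of_le hq.ne_top h4
  rw [← IsLocalization.map_under q.primeCompl R p, h5, ← IsLocalization.map_under q.primeCompl R
    (IsLocalRing.maximalIdeal R), IsLocalization.AtPrime.under_maximalIdeal R q]

variable (k : Type u) [Field k] (Ω : Type u) [Field Ω] [IsAlgClosed Ω] [Algebra (Polynomial k) Ω]
  [FaithfulSMul (Polynomial k) Ω] [Algebra.IsAlgebraic (Polynomial k) Ω]

theorem exists_ring :
    ∃ (R : Type u) (_ : CommRing R) (_ : IsDomain R) (_ : HenselianLocalRing R)
      (_ : IsAlgClosed (IsLocalRing.ResidueField R)) (φ : Polynomial k →+* R) (ψ : R →+* Ω),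
      ψ.comp φ = algebraMap (Polynomial k) Ω ∧ φ X ∈ IsLocalRing.maximalIdeal R ∧
      (∀ p : Ideal R, p.IsPrime → φ X ∈ p → p = IsLocalRing.maximalIdeal R) ∧
      Function.Injective ψ ∧ ∀ z : Ω, ∃ (n : ℕ) (a : R), ψ (φ X) ^ n * z = ψ a := by
  have hX : algebraMap (Polynomial k) Ω X ≠ 0 := by
    rw [Ne, FaithfulSMul.algebraMap_eq_zero_iff]
    exact X_ne_zero
  let A := integralClosure (Polynomial k) Ω
  have hfr : IsFractionRing A Ω := integralClosure.isFractionRing_of_algebraic (fun x hx => by
    rwa [FaithfulSMul.algebraMap_eq_zero_iff] at hx)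
  have hic : IsIntegrallyClosed A := (isIntegrallyClosed_iff_isIntegrallyClosedIn Ω).2 inferInstance
  have hint : Algebra.IsIntegral (Polynomial k) A := inferInstance
  have hinj : Function.Injective (algebraMap (Polynomial k) A) := by
    intro a b h
    apply FaithfulSMul.algebraMap_injective (Polynomial k) Ω
    exact congrArg (algebraMap A Ω) h
  have hmax : (Ideal.span {(X : Polynomial k)}).IsMaximal :=
    PrincipalIdealRing.isMaximal_of_irreducible irreducible_X
  obtain ⟨q, hq, hqc⟩ := Ideal.exists_ideal_over_maximal_of_isIntegral (S := A)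
    (Ideal.span {(X : Polynomial k)}) (by
      rw [(RingHom.injective_iff_ker_eq_bot _).1 hinj]
      exact bot_le)
  have hqX : algebraMap (Polynomial k) A X ∈ q := by
    rw [← Ideal.mem_comap, hqc]
    exact Ideal.mem_span_singleton_self _
  have hqp : q.IsPrime := hq.isPrime
  let R := Localization.subalgebra.ofField Ω q.primeCompl q.primeCompl_le_nonZeroDivisors
  have hloc : IsLocalization.AtPrime R q :=
    Localization.subalgebra.isLocalization_ofField Ω q.primeCompl q.primeCompl_le_nonZeroDivisors
  have hlr : IsLocalRing R := IsLocalization.AtPrime.isLocalRing R q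
  have hfrR : IsFractionRing R Ω :=
    Localization.subalgebra.isFractionRing_ofField Ω q.primeCompl q.primeCompl_le_nonZeroDivisors
  have hicR : IsIntegrallyClosed R := isIntegrallyClosed_of_isLocalization R q.primeCompl
    q.primeCompl_le_nonZeroDivisors
  have e : FractionRing R ≃+* Ω := (IsLocalization.algEquiv (nonZeroDivisors R) (FractionRing R) Ω).toRingEquiv
  have hac : IsAlgClosed (FractionRing R) := IsAlgClosed.of_ringEquiv _ _ e.symm
  have hsc : IsSepClosed (FractionRing R) := inferInstance
  obtain ⟨hhens, -⟩ := Groth.Agent.S0254.result R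
  let φ : Polynomial k →+* R := (algebraMap A R).comp (algebraMap (Polynomial k) A)
  let ψ : R →+* Ω := algebraMap R Ω
  have hφψ : ψ.comp φ = algebraMap (Polynomial k) Ω := by
    ext x <;> rfl
  have hσ : φ X ∈ IsLocalRing.maximalIdeal R := by
    have h1 := IsLocalization.AtPrime.under_maximalIdeal R q
    have h2 : algebraMap (Polynomial k) A X ∈ (IsLocalRing.maximalIdeal R).under A := by
      rw [h1]
      exact hqX
    exact h2
  have hσ0 : φ X ≠ 0 := by
    intro h
    apply hX
    have := congrArg (fun f => f X) hφψ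
    change ψ (φ X) = _ at this
    rw [← this, h, map_zero]
  have hprime : ∀ p : Ideal R, p.IsPrime → p ≠ ⊥ → p = IsLocalRing.maximalIdeal R :=
    fun p hp hp0 => eq_maximalIdeal A R q p hp hp0
  have hm0 : IsLocalRing.maximalIdeal R ≠ ⊥ := by
    intro h
    rw [h] at hσ
    exact hσ0 hσ
  have hacκ : IsAlgClosed (IsLocalRing.ResidueField R) := isAlgClosed_residueField R hm0
  refine ⟨R, inferInstance, inferInstance, hhens, hacκ, φ, ψ, hφψ, hσ, ?_, ?_, ?_⟩
  · intro p hp hxp
    exact hprime p hp (fun h => hσ0 (by rw [h] at hxp; exact hxp))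
  · exact IsFractionRing.injective R Ω
  · exact fun z => exists_pow_mul R Ω (φ X) hσ hprime z

open AlgebraicGeometry CategoryTheory in
theorem exists_trait :
    ∃ (R : Type u) (_ : CommRing R) (_ : IsDomain R) (_ : HenselianLocalRing R)
      (_ : IsAlgClosed (IsLocalRing.ResidueField R)) (φ : Polynomial k →+* R) (ψ : R →+* Ω),
      ψ.comp φ = algebraMap (Polynomial k) Ω ∧ φ X ∈ IsLocalRing.maximalIdeal R ∧
      IsOpenImmersion (Spec.map (CommRingCat.ofHom ψ)) ∧
      ∀ s : Spec (CommRingCat.of R), s ∉ Set.range (Spec.map (CommRingCat.ofHom ψ)) →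
        s = IsLocalRing.closedPoint R := by
  obtain ⟨R, _, _, _, _, φ, ψ, h1, h2, h3, h4, h5⟩ := exists_ring k Ω
  refine ⟨R, inferInstance, inferInstance, inferInstance, inferInstance, φ, ψ, h1, h2, ?_⟩
  let _ : Algebra R Ω := ψ.toAlgebra
  have hu : ψ (φ X) ≠ 0 := by
    have := congrArg (fun f => f X) h1
    change ψ (φ X) = _ at this
    rw [this, Ne, FaithfulSMul.algebraMap_eq_zero_iff]
    exact X_ne_zero
  have hloc : IsLocalization.Away (φ X) Ω := by
    refine ⟨?_, ?_, ?_⟩
    · rintro ⟨_, n, rfl⟩
      rw [map_pow]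
      exact (IsUnit.mk0 _ hu).pow n
    · intro z
      obtain ⟨n, a, ha⟩ := h5 z
      refine ⟨⟨a, ⟨_, n, rfl⟩⟩, ?_⟩
      change z * ψ (φ X ^ n) = ψ a
      rw [map_pow, mul_comm]
      exact ha
    · intro a b hab
      exact ⟨1, by rw [h4 hab]⟩
  constructor
  · exact IsOpenImmersion.of_isLocalization (S := Ω) (φ X)
  · intro s hs
    have h6 : Set.range (Spec.map (CommRingCat.ofHom ψ)) = (PrimeSpectrum.basicOpen (φ X) : Set (PrimeSpectrum R)) :=
      PrimeSpectrum.localization_away_comap_range Ω (φ X)
    rw [h6] at hs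
    have h7 : φ X ∈ s.asIdeal := by
      by_contra h
      exact hs h
    exact PrimeSpectrum.ext (h3 s.asIdeal s.isPrime h7)

open AlgebraicGeometry CategoryTheory in
/-- A strictly henselian local `k`-algebra `R` with algebraically closed residue field, and an open immersion
`Spec Ω ⟶ Spec R` onto the complement of the closed point, such that `s ∈ Ω` comes from the maximal ideal. -/
def Trait (k : Type u) [Field k] (Ω : Type u) [Field Ω] (ι : k →+* Ω) (s : Ω) : Prop :=
  ∃ (R : Type u) (_ : CommRing R) (_ : IsDomain R) (_ : HenselianLocalRing R)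
    (_ : IsAlgClosed (IsLocalRing.ResidueField R)) (i : k →+* R) (ψ : R →+* Ω) (σ : R),
    ψ.comp i = ι ∧ ψ σ = s ∧ σ ∈ IsLocalRing.maximalIdeal R ∧
      IsOpenImmersion (Spec.map (CommRingCat.ofHom ψ)) ∧
      ∀ s : Spec (CommRingCat.of R), s ∉ Set.range (Spec.map (CommRingCat.ofHom ψ)) →
        s = IsLocalRing.closedPoint R

omit [IsAlgClosed Ω] [Algebra (Polynomial k) Ω] [FaithfulSMul (Polynomial k) Ω]
  [Algebra.IsAlgebraic (Polynomial k) Ω] in
variable {k Ω} in
theorem trait_of [IsAlgClosed Ω] (a : Polynomial k →+* Ω) (ha : Function.Injective a)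
    (halg : ∀ z : Ω, ∃ p : Polynomial (Polynomial k), p ≠ 0 ∧ p.eval₂ a z = 0) :
    Trait k Ω (a.comp C) (a X) := by
  let _ : Algebra (Polynomial k) Ω := a.toAlgebra
  have h1 : FaithfulSMul (Polynomial k) Ω := (faithfulSMul_iff_algebraMap_injective _ _).2 ha
  have h2 : Algebra.IsAlgebraic (Polynomial k) Ω := ⟨fun z => halg z⟩
  obtain ⟨R, _, _, _, _, φ, ψ, h3, h4, h5, h6⟩ := exists_trait k Ω
  refine ⟨R, inferInstance, inferInstance, inferInstance, inferInstance, φ.comp C, ψ, φ X, ?_, ?_, h4, h5, h6⟩
  · rw [← RingHom.comp_assoc, h3]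
    rfl
  · exact congrArg (fun f => f X) h3

section RatFunc

variable (k : Type u) [Field k]

/-- the map `X ↦ X⁻¹` -/
noncomputable def invMap : Polynomial k →+* RatFunc k :=
  Polynomial.eval₂RingHom (algebraMap k (RatFunc k)) (RatFunc.X)⁻¹

theorem invMap_X : invMap k X = (RatFunc.X)⁻¹ := by simp [invMap]

theorem invMap_C : (invMap k).comp C = algebraMap k (RatFunc k) := by
  ext x
  simp [invMap]

theorem injective_invMap : Function.Injective (invMap k) := by
  have h1 : Transcendental k (RatFunc.X : RatFunc k) := by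
    rw [transcendental_iff_injective]
    have : (Polynomial.aeval (RatFunc.X : RatFunc k) : Polynomial k →ₐ[k] RatFunc k) =
        (IsScalarTower.toAlgHom k (Polynomial k) (RatFunc k)) := by
      apply Polynomial.algHom_ext
      simp
    rw [this]
    exact FaithfulSMul.algebraMap_injective (Polynomial k) (RatFunc k)
  have h2 : Transcendental k ((RatFunc.X : RatFunc k)⁻¹) := by
    intro h
    apply h1
    have := h.inv
    rwa [inv_inv] at this
  rw [transcendental_iff_injective] at h2
  intro x y hxy
  exact h2 hxy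

omit k [Field k] in
theorem isAlgebraic_aux {k : Type u} [Field k] {K : Type u} [Field K] (a : Polynomial k →+* K)
    (ha : Function.Injective a) (x : K) (b : k →+* K) (hb : a.comp C = b) (hx : a X = x⁻¹)
    (hgen : ∀ z : K, ∃ p q : Polynomial k, z = p.eval₂ b x / q.eval₂ b x) (z : K) :
    ∃ p : Polynomial (Polynomial k), p ≠ 0 ∧ p.eval₂ a z = 0 := by
  let _ : Algebra (Polynomial k) K := a.toAlgebra
  have hf : FaithfulSMul (Polynomial k) K :=
    (faithfulSMul_iff_algebraMap_injective _ _).2 ha
  change IsAlgebraic (Polynomial k) z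
  have hX : IsAlgebraic (Polynomial k) x := by
    have h1 : IsAlgebraic (Polynomial k) (algebraMap (Polynomial k) K X) :=
      isAlgebraic_algebraMap X
    have h2 : algebraMap (Polynomial k) K X = x⁻¹ := hx
    rw [h2] at h1
    have h3 := h1.inv
    rwa [inv_inv] at h3
  have hC : ∀ c : k, IsAlgebraic (Polynomial k) (b c) := by
    intro c
    have h1 : IsAlgebraic (Polynomial k) (algebraMap (Polynomial k) K (C c)) :=
      isAlgebraic_algebraMap (C c)
    have h2 : algebraMap (Polynomial k) K (C c) = b c :=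
      congrArg (fun f => f c) hb
    rwa [h2] at h1
  have hp : ∀ p : Polynomial k, IsAlgebraic (Polynomial k) (p.eval₂ b x) := by
    intro p
    induction p using Polynomial.induction_on' with
    | add p q hp hq =>
      rw [Polynomial.eval₂_add]
      exact hp.add hq
    | monomial n a =>
      rw [Polynomial.eval₂_monomial]
      exact (hC a).mul (hX.pow n)
  obtain ⟨p, q, rfl⟩ := hgen z
  rw [div_eq_mul_inv]
  exact (hp p).mul (hp q).inv

theorem isAlgebraic_invMap (z : RatFunc k) :
    ∃ p : Polynomial (Polynomial k), p ≠ 0 ∧ p.eval₂ (invMap k) z = 0 := by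
  refine isAlgebraic_aux (invMap k) (injective_invMap k) RatFunc.X (algebraMap k (RatFunc k)) (invMap_C k)
    (invMap_X k) (fun z => ⟨z.num, z.denom, ?_⟩) z
  have h : ∀ p : Polynomial k, p.eval₂ (algebraMap k (RatFunc k)) RatFunc.X =
      algebraMap (Polynomial k) (RatFunc k) p := by
    intro p
    induction p using Polynomial.induction_on' with
    | add p q hp hq => rw [Polynomial.eval₂_add, hp, hq, map_add]
    | monomial n a =>
      rw [Polynomial.eval₂_monomial, ← Polynomial.C_mul_X_pow_eq_monomial, map_mul, map_pow,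
        RatFunc.algebraMap_X]
      rfl
  rw [h, h, RatFunc.num_div_denom]

omit k [Field k] in
theorem isAlgebraic_closure {k : Type u} [Field k] {K Ω : Type u} [Field K] [Field Ω] [Algebra K Ω]
    [Algebra.IsAlgebraic K Ω] (a : Polynomial k →+* K)
    (halg : ∀ z : K, ∃ p : Polynomial (Polynomial k), p ≠ 0 ∧ p.eval₂ a z = 0) (z : Ω) :
    ∃ p : Polynomial (Polynomial k), p ≠ 0 ∧ p.eval₂ ((algebraMap K Ω).comp a) z = 0 := by
  let _ : Algebra (Polynomial k) K := a.toAlgebra
  let _ : Algebra (Polynomial k) Ω := ((algebraMap K Ω).comp a).toAlgebra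
  have : IsScalarTower (Polynomial k) K Ω := IsScalarTower.of_algebraMap_eq (fun _ => rfl)
  have h1 : Algebra.IsAlgebraic (Polynomial k) K := ⟨fun z => halg z⟩
  have h2 : Algebra.IsAlgebraic (Polynomial k) Ω := Algebra.IsAlgebraic.trans (Polynomial k) K Ω
  exact h2.isAlgebraic z

/-- Two traits with the same geometric generic point, with inverse parameters. -/
theorem exists_two_traits : ∃ (Ω : Type u) (_ : Field Ω) (_ : IsAlgClosed Ω) (ι : k →+* Ω) (s : Ω),
    s ≠ 0 ∧ Trait k Ω ι s ∧ Trait k Ω ι s⁻¹ := by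
  let K := RatFunc k
  let Ω := AlgebraicClosure K
  let ι : k →+* Ω := (algebraMap K Ω).comp (algebraMap k K)
  let s : Ω := algebraMap K Ω RatFunc.X
  have hs : s ≠ 0 := by
    intro h
    exact RatFunc.X_ne_zero ((map_eq_zero _).1 h)
  refine ⟨Ω, inferInstance, inferInstance, ι, s, hs, ?_, ?_⟩
  · have h1 : ∀ z : K, ∃ p : Polynomial (Polynomial k), p ≠ 0 ∧
        p.eval₂ (algebraMap (Polynomial k) K) z = 0 := fun z => by
      have h : IsAlgebraic (Polynomial k) z := by
        rw [← RatFunc.num_div_denom z, div_eq_mul_inv]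
        exact (isAlgebraic_algebraMap _).mul (isAlgebraic_algebraMap _).inv
      exact h
    have h2 := trait_of ((algebraMap K Ω).comp (algebraMap (Polynomial k) K))
      ((algebraMap K Ω).injective.comp (FaithfulSMul.algebraMap_injective (Polynomial k) (RatFunc k)))
      (isAlgebraic_closure (algebraMap (Polynomial k) K) h1)
    have h3 : ((algebraMap K Ω).comp (algebraMap (Polynomial k) K)).comp C = ι := by
      ext x
      rfl
    have h4 : ((algebraMap K Ω).comp (algebraMap (Polynomial k) K)) X = s := by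
      change algebraMap K Ω (algebraMap (Polynomial k) (RatFunc k) X) = _
      rw [RatFunc.algebraMap_X]
    rwa [h3, h4] at h2
  · have h2 := trait_of ((algebraMap K Ω).comp (invMap k))
      ((algebraMap K Ω).injective.comp (injective_invMap k))
      (isAlgebraic_closure (invMap k) (isAlgebraic_invMap k))
    have h3 : ((algebraMap K Ω).comp (invMap k)).comp C = ι := by
      rw [RingHom.comp_assoc, invMap_C]
    have h4 : ((algebraMap K Ω).comp (invMap k)) X = s⁻¹ := by
      change algebraMap K Ω (invMap k X) = _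
      rw [invMap_X, map_inv₀]
    rwa [h3, h4] at h2

end RatFunc

end Groth.Agent.Sga5.H853.BaseRing
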